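import Cfsg.Agent.CosetEnum.Rename

/-!
Universal families with further letters; point stabilisers as coatoms (owner: helper28).
-/

set_option autoImplicit false

namespace Cfsg.Agent.CosetEnum

open MulAction

/-- the letter `y` is a word in the old letters -/
def IsWd {G : Type} [Group G] (q : ℕ → G) (n : ℕ) (f : ℕ → G) (lX : List (ℕ × ℕ)) (RLX : List (List ℕ × ℕ))
    (pl : List ℕ) (wd : ℕ → List ℕ) (y : ℕ) : Prop :=
  wOK n (wd y) = true ∧ f y = ((wd y).map q).prod ∧ (ivL lX y :: (wd y).map (fun x => pl.getD (x - 1) 0), 1) ∈ RLX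

/-- A universal family with further letters that are words in the old letters. -/
theorem Univ.ext {G : Type} [Group G] {q : ℕ → G} {n : ℕ} {l : List (ℕ × ℕ)} {RL : List (List ℕ × ℕ)}
    (U : Univ q n l RL) {f : ℕ → G} {m : ℕ} {lX : List (ℕ × ℕ)} {RLX : List (List ℕ × ℕ)} (hf : Good f m lX RLX)
    {pl : List ℕ} (hren : renB n pl lX l RLX RL = true)
    (hpl : ∀ x, isLet n x = true → isLet m (pl.getD (x - 1) 0) = true ∧ f (pl.getD (x - 1) 0) = q x)
    {wd : ℕ → List ℕ}
    (hwd : ∀ y, isLet m y = true → (∃ x, isLet n x = true ∧ pl.getD (x - 1) 0 = y) ∨ IsWd q n f lX RLX pl wd y ∨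
      ∃ z, ivL lX z = y ∧ IsWd q n f lX RLX pl wd z) :
    Univ f m lX RLX where
  good := hf
  top := by
    rw [eq_top_iff, ← U.top]
    unfold Cl
    rw [Subgroup.closure_le]
    rintro _ ⟨x, hx, rfl⟩
    obtain ⟨h1, h2⟩ := hpl x hx
    rw [← h2]
    exact mem_Cl f h1
  univ H _ h hh := by
    obtain ⟨φ, hφ⟩ := U.univ H _ (hh.ren hren)
    refine ⟨φ, fun y => ?_⟩
    have key : ∀ y, IsWd q n f lX RLX pl wd y → φ (f y) = h y := by
      rintro y ⟨h1, h2, h3⟩
      rw [h2, map_list_prod, List.map_map]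
      have h4 := hh.rel _ h3
      simp only [List.map_cons, List.prod_cons, pow_one, hh.inv, List.map_map] at h4
      rw [inv_mul_eq_one] at h4
      rw [h4]
      congr 1
      apply List.map_congr_left
      intro x hx
      simp only [wOK, List.all_eq_true] at h1
      show φ (q x) = h (pl.getD (x - 1) 0)
      rw [hφ, ren, if_pos (h1 x hx)]
    by_cases hy : isLet m y = true
    · rcases hwd y hy with ⟨x, hx, rfl⟩ | h1 | ⟨z, rfl, h1⟩
      · rw [(hpl x hx).2, hφ, ren, if_pos hx]
      · exact key y h1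
      · rw [hf.inv, map_inv, key z h1, hh.inv]
    · rw [hf.one y (by simpa using hy), map_one, hh.one y (by simpa using hy)]

section

variable {G : Type} [Group G] {g : ℕ → G} {ng k : ℕ} {l : List (ℕ × ℕ)} {P : Par} {lets bs : List ℕ}

/-- a primitive point stabiliser is a coatom -/
theorem Lvl.coatom (L : Lvl g ng l lets P k bs) (hinv : ∀ x, g (ivL l x) = (g x)⁻¹)
    (hp : primB P.m (gaps (1 :: bs)) = true) : IsCoatom (Cl g k) := by
  have hpos := L.pos
  obtain ⟨A, letsk, cw, h1, h2, h3, h3k, h4, h5, h6, h7⟩ := L.ex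
  have hprim := prim_of_orbs hpos h2 hinv h3k h4 h5 h6 h7 hp
  have hnt : Nontrivial (Fin P.m) := Fin.nontrivial_iff_two_le.2 (by omega)
  have hco := (MulAction.isCoatom_stabilizer_iff_preprimitive G (⟨0, by omega⟩ : Fin P.m)).2 hprim
  rwa [h7] at hco

end

theorem covBy_map {Q G : Type*} [Group Q] [Group G] (ι : Q →* G) (hι : Function.Injective ι) {C : Subgroup Q}
    (hC : IsCoatom C) : C.map ι ⋖ ι.range := by
  constructor
  · refine lt_of_le_of_ne ?_ ?_
    · rw [MonoidHom.range_eq_map]
      exact Subgroup.map_mono le_top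
    · intro h
      rw [MonoidHom.range_eq_map] at h
      exact hC.1 (Subgroup.map_injective hι h)
  · intro M h1 h2
    have h3 : (M.comap ι).map ι = M := by
      rw [Subgroup.map_comap_eq]
      exact inf_eq_right.2 h2.le
    have h4 : C < M.comap ι := by
      refine lt_of_le_of_ne ?_ ?_
      · rw [← Subgroup.map_le_iff_le_comap]
        exact h1.le
      · intro h
        rw [h, h3] at h1
        exact lt_irrefl _ h1
    have h5 := hC.2 _ h4
    rw [h5, ← MonoidHom.range_eq_map] at h3
    rw [h3] at h2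
    exact lt_irrefl _ h2

theorem coatom_of_covBy {G : Type*} [Group G] {H K : Subgroup G} (h : H ⊓ K ⋖ H) : IsCoatom ((H ⊓ K).subgroupOf H) := by
  constructor
  · intro h1
    rw [Subgroup.subgroupOf_eq_top] at h1
    exact absurd h.1 (not_lt_of_ge h1)
  · intro M hM
    have h2 : (M.map H.subtype).subgroupOf H = M := by
      rw [← Subgroup.comap_subtype, Subgroup.comap_map_eq_self_of_injective H.subtype_injective]
    have h3 : H ⊓ K ≤ M.map H.subtype := by
      intro x hx
      exact ⟨⟨x, hx.1⟩, hM.le (Subgroup.mem_subgroupOf.2 hx), rfl⟩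
    have h4 : M.map H.subtype ≤ H := by
      rintro _ ⟨x, _, rfl⟩
      exact x.2
    rcases h.eq_or_eq h3 h4 with h5 | h5
    · exfalso
      rw [← h2, h5] at hM
      exact lt_irrefl _ hM
    · rw [← h2, h5]
      exact Subgroup.subgroupOf_self (H := H)

end Cfsg.Agent.CosetEnum
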